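import Groth.Agent.S1964
import Groth.Agent.VarietyB.KrullAkizuki
import Groth.Prelude.Def_EtBase
import Mathlib.RingTheory.DedekindDomain.Dvr
import Mathlib.RingTheory.DedekindDomain.IntegralClosure
import Mathlib.RingTheory.DiscreteValuationRing.TFAE
import Mathlib.RingTheory.KrullDimension.Basic
import Mathlib.RingTheory.KrullDimension.Zero

/-!
# Normalisation of a one-dimensional strictly henselian Noetherian domain

* `exists_dvr`: if `D` is a Noetherian strictly henselian local domain of dimension at most one, not a
  field, the integral closure of `D` in its fraction field is a strictly henselian discrete valuation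
  ring (Krull–Akizuki).
* `exists_dvr_of_ne_closedPoint`: if `R` is a Noetherian strictly henselian local ring of dimension at
  most one and `p` a non-maximal prime, the residue field at `p` is the fraction field of a strictly
  henselian discrete valuation ring over `R`.
-/

set_option autoImplicit false
universe u

namespace Groth.Agent.Sga5.H847.KAHens

open IsLocalRing

theorem exists_dvr (D K : Type u) [CommRing D] [IsDomain D] [IsNoetherianRing D] [Field K]
    [Algebra D K] [IsFractionRing D K] (hD : EtCoh.IsStrictlyHenselianLocalRing D)
    (hdim : Ring.DimensionLEOne D) (hnf : ¬ IsField D) :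
    IsDiscreteValuationRing (integralClosure D K) ∧
      EtCoh.IsStrictlyHenselianLocalRing (integralClosure D K) ∧
      IsFractionRing (integralClosure D K) K := by
  obtain ⟨h1, h2⟩ := hD
  obtain ⟨h3, h4, h5⟩ := Groth.Agent.S1964.result D (integralClosure D K)
  have h6 : IsFractionRing (integralClosure D K) K :=
    integralClosure.isFractionRing_of_finite_extension K K
  have h7 : IsNoetherianRing (integralClosure D K) :=
    Groth.Agent.VarietyB.KrullAkizuki.krullAkizuki (R := D) (K := K) (L := K) Subtype.val_injective
  have h8 : IsIntegrallyClosed (integralClosure D K) :=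
    integralClosure.isIntegrallyClosedOfFiniteExtension K
  have h9 : Ring.DimensionLEOne (integralClosure D K) := inferInstance
  have h10 : IsDedekindDomain (integralClosure D K) := {}
  have hinj : Function.Injective (algebraMap D (integralClosure D K)) := by
    intro x y hxy
    exact IsFractionRing.injective D K (congrArg (algebraMap (integralClosure D K) K) hxy)
  have hnf' : ¬ IsField (integralClosure D K) := fun h =>
    hnf (isField_of_isIntegral_of_isField (R := D) (S := integralClosure D K) hinj h)
  refine ⟨((IsDiscreteValuationRing.TFAE (integralClosure D K) hnf').out 0 2).mpr h10,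
    ⟨h3, (h5 h2).1⟩, h6⟩

theorem dimensionLEOne_quotient (R : Type u) [CommRing R] (hdim : ringKrullDim R ≤ 1) (p : Ideal R)
    [p.IsPrime] : Ring.DimensionLEOne (R ⧸ p) := by
  have h : Ring.KrullDimLE 1 (R ⧸ p) :=
    Ring.krullDimLE_iff.2 ((ringKrullDim_quotient_le p).trans (by exact_mod_cast hdim))
  exact ⟨fun h0 hq => Ideal.IsPrime.isMaximal_of_ne_bot hq h0⟩

/-- The residue field at a non-maximal prime of a strictly henselian Noetherian local ring of dimension at
most one is the fraction field of a strictly henselian discrete valuation ring. -/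
theorem exists_dvr_of_prime (R : Type u) [CommRing R] [IsNoetherianRing R]
    (hR : EtCoh.IsStrictlyHenselianLocalRing R) (hdim : ringKrullDim R ≤ 1) (p : Ideal R) [p.IsPrime]
    (hp : ¬ p.IsMaximal) :
    ∃ (C : Type u) (_ : CommRing C) (_ : IsDomain C) (_ : IsDiscreteValuationRing C) (_ : Algebra R C)
      (_ : Algebra C p.ResidueField) (_ : IsFractionRing C p.ResidueField),
      EtCoh.IsStrictlyHenselianLocalRing C := by
  have hD : EtCoh.IsStrictlyHenselianLocalRing (R ⧸ p) := by
    obtain ⟨h1, h2⟩ := hR
    have : Algebra.IsIntegral R (R ⧸ p) := inferInstance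
    obtain ⟨h3, h4, h5⟩ := Groth.Agent.S1964.result R (R ⧸ p)
    exact ⟨h3, (h5 h2).1⟩
  have hnf : ¬ IsField (R ⧸ p) := fun h => hp (Ideal.Quotient.maximal_of_isField p h)
  have h1 := dimensionLEOne_quotient R hdim p
  obtain ⟨h2, h3, h4⟩ := exists_dvr (R ⧸ p) p.ResidueField hD h1 hnf
  exact ⟨integralClosure (R ⧸ p) p.ResidueField, inferInstance, inferInstance, h2,
    ((algebraMap (R ⧸ p) (integralClosure (R ⧸ p) p.ResidueField)).comp (algebraMap R (R ⧸ p))).toAlgebra,
    inferInstance, h4, h3⟩

end Groth.Agent.Sga5.H847.KAHens
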